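import Groth.Agent.Dix.IdealModCartier
import Groth.Agent.Divis.CartierData
import Groth.Agent.Ega1.QCohLoc
import Groth.Agent.Ega2.QCohLocal

/-!
# Divisors of regular sections of invertible modules

* `exists_divisor`: a global section `t` of an invertible module `M` whose local coefficients are
  nonzerodivisors has a divisor of zeros `D` (effective Cartier), `M ⊗ I_D ≅ O_X`, and `D` is generated by the
  coefficient of `t` on every affine open on which `M` has a generator.
* `exists_divisor_of_isGen_basicOpen`: if `M` is invertible on a qcqs scheme `X`, `f` a function generating an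
  effective Cartier ideal, and `M` has a generator over `X_f`, then `M ⊗ I_D ≅ O_X` for some effective Cartier
  ideal `D` whose support does not meet `X_f`.
-/

set_option autoImplicit false
universe u

open CategoryTheory CategoryTheory.Limits AlgebraicGeometry Opposite TopologicalSpace

namespace Groth.Agent.Models.H38.SecDiv

open Groth.Agent.Fdesc.LocGen Groth.Agent.Picfga.LineHom Groth.Agent.Dix.IdealModCartier
open Groth.Agent.Divis.EffCartier

variable {X : Scheme.{u}}

/-- The divisor of zeros of a regular section of an invertible module. -/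
theorem exists_divisor {M : X.Modules} (hM : PicF.IsInvertible M) (t : Γ(M, ⊤))
    (ht : ∀ (U : X.affineOpens) (e : Γ(M, U.1)) (a : Γ(X, U.1)), IsGen e →
      res M le_top t = a • e → a ∈ nonZeroDivisors Γ(X, U.1)) :
    ∃ D : X.IdealSheafData, BlowUp.IsEffCartierIdeal D ∧
      ClSub.IsInverseOf M (ClSub.idealMod D) ∧
      ∀ (U : X.affineOpens) (e : Γ(M, U.1)) (a : Γ(X, U.1)), IsGen e →
        res M le_top t = a • e → D.ideal U = Ideal.span {a} := by
  -- a cover by affine opens with generators
  have h0 : ∀ x : X, ∃ (U : X.affineOpens) (e : Γ(M, U.1)), x ∈ U.1 ∧ IsGen e := by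
    intro x
    obtain ⟨V, e, hx, he⟩ := (isInvertible_iff M).1 hM x
    obtain ⟨W, hxW, hW⟩ := exists_affine_mem_le V x hx
    exact ⟨W, _, hxW, he.res hW⟩
  choose W e hxW he using h0
  have hW : (⨆ x, (W x).1) = ⊤ := top_le_iff.1 fun x _ => Opens.mem_iSup.2 ⟨x, hxW x⟩
  choose a ha using fun x => (he x).exists_eq (res M (le_top : (W x).1 ≤ ⊤) t)
  have hnz : ∀ x, a x ∈ nonZeroDivisors Γ(X, (W x).1) := fun x => ht (W x) (e x) (a x) (he x) (ha x)
  have hspan : ∀ (x y : X) (V : X.affineOpens) (hi : V.1 ≤ (W x).1) (hj : V.1 ≤ (W y).1),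
      Ideal.span {ores hi (a x)} ≤ Ideal.span {ores hj (a y)} := by
    intro x y V hi hj
    rw [Ideal.span_singleton_le_span_singleton]
    obtain ⟨c, hc⟩ := ((he x).res hi).exists_eq (res M hj (e y))
    have h1 := congrArg (res M hi) (ha x)
    have h2 := congrArg (res M hj) (ha y)
    rw [res_res, res_smul] at h1 h2
    refine ⟨c, ?_⟩
    apply ((he x).res hi).ext
    rw [← h1, h2, hc, smul_smul]
  obtain ⟨D, hD⟩ := Groth.Agent.Divis.CartierData.exists_ideal W hW a
    (fun x y V hi hj => le_antisymm (hspan x y V hi hj) (hspan y x V hj hi))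
  have hDe := Groth.Agent.Divis.CartierData.isEffCartierIdeal hW hD hnz
  have hgen : ∀ x, GenOn D (a x) := fun x => genOn_of_affine (hnz x) (by
    rw [hD x (W x) le_rfl, ores_refl])
  have hs : ∀ x, ∃ s : Γ(ClSub.idealMod D, (W x).1), val D s = a x := fun x =>
    exists_val_eq D (W x) (by
      rw [hD x (W x) le_rfl, ores_refl]; exact Ideal.mem_span_singleton_self _)
  choose s hs using hs
  have gs : ∀ x, IsGen (s x) := fun x => isGen_of_genOn ((hs x).symm ▸ hgen x)
  refine ⟨D, hDe, ?_, ?_⟩
  · obtain ⟨φ, -⟩ := exists_iso (L := CohB1.tensorMod M (ClSub.idealMod D))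
      (N := Coh.structureModule X) hW (e := fun x => tmul (e x) (s x))
      (fun x => (he x).tmul (gs x)) (n := fun x => one _)
      (trans_of_inf (fun x => (he x).tmul (gs x)) (by
        intro x y
        obtain ⟨c, hc⟩ := ((he y).res (inf_le_right : (W x).1 ⊓ (W y).1 ≤ _)).exists_eq
          (res M (inf_le_left : (W x).1 ⊓ (W y).1 ≤ _) (e x))
        obtain ⟨d, hd, hd'⟩ := exists_factor (hgen x) (hgen y)
          (inf_le_left : (W x).1 ⊓ (W y).1 ≤ _) inf_le_right (hs x) (hs y)
        refine ⟨1, ?_, ?_⟩
        · rw [res_tmul, res_tmul, hc, hd, smul_tmul, tmul_smul, smul_smul]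
          congr 1
          -- `c * d = 1`
          have h1 := congrArg (res M (inf_le_left : (W x).1 ⊓ (W y).1 ≤ _)) (ha x)
          have h2 := congrArg (res M (inf_le_right : (W x).1 ⊓ (W y).1 ≤ _)) (ha y)
          rw [res_res, res_smul] at h1 h2
          rw [h2, hc, smul_smul, hd'] at h1
          have h3 := ((he y).res (inf_le_right : (W x).1 ⊓ (W y).1 ≤ _)).ext h1
          apply ((hgen y).res (inf_le_right : (W x).1 ⊓ (W y).1 ≤ _)).cancel
          rw [one_mul]
          conv_rhs => rw [h3]
          ring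
        · rw [res_one, res_one, one_smul])) (fun x => isGen_one _)
    exact ⟨φ⟩
  · intro U e' a' he' ha'
    have hnz' := ht U e' a' he' ha'
    have key : ∀ (x : X) (V : X.affineOpens) (hU : V.1 ≤ U.1) (hx : V.1 ≤ (W x).1),
        D.ideal V = Ideal.span {ores hU a'} := by
      intro x V hU hx
      rw [hD x V hx]
      obtain ⟨c, hc, hc'⟩ := ((he x).res hx).exists_unit (he'.res hU)
      have h1 := congrArg (res M hx) (ha x)
      have h2 := congrArg (res M hU) ha'
      rw [res_res, res_smul] at h1 h2
      rw [h2, hc', smul_smul] at h1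
      have h3 := ((he x).res hx).ext h1
      rw [← h3]
      exact (Ideal.span_singleton_mul_right_unit hc _)
    have hgU : ∀ x ∈ U.1, ∃ V : X.affineOpens, x ∈ V.1 ∧ ∃ h : V.1 ≤ U.1, GenOn D (ores h a') := by
      intro x hx
      obtain ⟨V, hxV, hV⟩ := exists_affine_mem_le (U.1 ⊓ (W x).1) x ⟨hx, hxW x⟩
      refine ⟨V, hxV, hV.trans inf_le_left, ?_⟩
      intro V' hV'
      rw [ores_ores]
      exact ⟨res_mem_nonZeroDivisors U.2 V'.2 _ hnz', key x V' _ ((hV'.trans hV).trans inf_le_right)⟩
    obtain ⟨s', hs'⟩ := exists_val_eq_of_local D U.1 a' (by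
      intro x hx
      obtain ⟨V, hxV, hV, hg⟩ := hgU x hx
      refine ⟨V, hV, hxV, ?_⟩
      have := (hg V le_rfl).2
      rw [ores_refl] at this
      rw [this]
      exact Ideal.mem_span_singleton_self _)
    have hgen' : IsGen s' := by
      rw [isGen_iff_forall_exists]
      intro x hx
      obtain ⟨V, hxV, hV, hg⟩ := hgU x hx
      refine ⟨V.1, hV, hxV, isGen_of_genOn ?_⟩
      rw [val_res, hs']
      exact hg
    have := (genOn_of_isGen hgen' U le_rfl).2
    rwa [ores_refl, hs'] at this

/-- An invertible module on a qcqs scheme which has a generator off the zeros of a function `f` generating an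
effective Cartier divisor is the inverse of an effective Cartier ideal supported on the zeros of `f`. -/
theorem exists_divisor_of_isGen_basicOpen [CompactSpace X] [QuasiSeparatedSpace X] {M : X.Modules}
    (hM : PicF.IsInvertible M) {D₀ : X.IdealSheafData} {f : Γ(X, ⊤)} (hf : GenOn D₀ f)
    {s : Γ(M, X.basicOpen f)} (hs : IsGen s) :
    ∃ D : X.IdealSheafData, BlowUp.IsEffCartierIdeal D ∧
      ClSub.IsInverseOf M (ClSub.idealMod D) ∧ ∀ x ∈ X.basicOpen f, x ∉ D.support := by
  have hle : X.basicOpen f ≤ ⊤ := le_top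
  obtain ⟨n, t, ht⟩ : ∃ (n : ℕ) (t : Γ(M, ⊤)), res M hle t = ores hle f ^ n • s :=
    (Groth.Agent.Ega1.QCohLoc.isLocAt_of_qcqs (Ega2.QCohLocal.isQCoh_of_isInvertible hM)
      (V := (⊤ : X.Opens)) isCompact_univ (by
        have := (inferInstance : QuasiSeparatedSpace X)
        exact isQuasiSeparated_univ) f).surj s
  obtain ⟨D, hD, hinv, hDt⟩ := exists_divisor hM t (by
    intro U e a he hae
    -- the intersection of `U` with the basic open
    set fU : Γ(X, U.1) := ores le_top f with hfU
    have hW : X.basicOpen fU ≤ U.1 := X.basicOpen_le fU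
    have hW' : X.basicOpen fU ≤ X.basicOpen f := by
      have : X.basicOpen fU = U.1 ⊓ X.basicOpen f := X.basicOpen_res f (homOfLE le_top).op
      rw [this]; exact inf_le_right
    obtain ⟨c, hc, hc'⟩ := (he.res hW).exists_unit (hs.res hW')
    have h1 := congrArg (res M hW') ht
    have h2 := congrArg (res M hW) hae
    rw [res_res, res_smul, hc', smul_smul, map_pow, ores_ores] at h1
    rw [res_res, res_smul, h1] at h2
    have h3 := (he.res hW).ext h2
    have hfu : IsUnit (ores (hW'.trans hle) f) := by
      have : ores (hW'.trans hle) f = ores hW fU := (ores_ores (le_top : U.1 ≤ ⊤) hW f).symm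
      rw [this]
      exact (RingedSpace.isUnit_res_basicOpen _ fU)
    have hau : IsUnit (ores hW a) := by
      rw [← h3]; exact (hfu.pow n).mul hc
    rw [mem_nonZeroDivisors_iff_right]
    intro b hb
    have h4 : ores hW b = 0 := by
      have h5 := congrArg (ores hW) hb
      rw [map_mul, map_zero] at h5
      exact (hau.mul_left_eq_zero).1 h5
    have := U.2.isLocalization_basicOpen fU
    obtain ⟨m, hm⟩ : ∃ m : ℕ, fU ^ m * b = 0 := by
      have h6 := (IsLocalization.map_eq_zero_iff (Submonoid.powers fU) Γ(X, X.basicOpen fU) b).1 h4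
      obtain ⟨⟨_, m, rfl⟩, hm⟩ := h6
      exact ⟨m, hm⟩
    have h7 : fU ^ m ∈ nonZeroDivisors Γ(X, U.1) := pow_mem (hf U le_top).1 m
    exact (mul_left_mem_nonZeroDivisors_eq_zero_iff h7).1 hm)
  refine ⟨D, hD, hinv, ?_⟩
  intro x hx
  obtain ⟨V, hxV, hV⟩ := exists_affine_mem_le (X.basicOpen f) x hx
  have h1 := congrArg (res M hV) ht
  rw [res_res, res_smul, map_pow, ores_ores] at h1
  have h2 := hDt V _ _ (hs.res hV) h1
  have hfu : IsUnit (ores (hV.trans hle) f) := by
    rw [← ores_ores hle hV]
    exact (RingedSpace.isUnit_res_basicOpen _ f).map (ores hV)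
  rw [Scheme.IdealSheafData.mem_support_iff_of_mem (U := V) hxV, h2,
    Ideal.span_singleton_eq_top.2 (hfu.pow n)]
  simpa using hxV

end Groth.Agent.Models.H38.SecDiv
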