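import Groth.Prelude.Def_ModelsG
import Groth.Agent.Models.H38.SecDiv
import Groth.Agent.Models.DVRGeneric2
import Groth.Agent.Fga.PicMon
import Groth.Agent.S1659
import Mathlib.AlgebraicGeometry.Noetherian

/-!
# Invertible modules on a model which are trivial on the generic fibre

`R` a discrete valuation ring, `p : X ⟶ Spec R` flat and qcqs, `g : C ⟶ X` its generic fibre.

* `exists_divisor_of_trivial`: an invertible module `M` on `X` with `g^* M ≅ O_C` satisfies `M ⊗ I_D ≅ O_X` for an
  effective Cartier ideal `D` supported in the closed fibre.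
* `exists_prod_ker_pow`: if moreover `X` is Noetherian and `Γ_1, …, Γ_n` enumerate the components of the closed
  fibre, with effective Cartier ideals, any effective Cartier ideal `D` supported in the closed fibre is
  `∏ I(Γ_i) ^ c_i`.
* `idealMod_prod_pow`: the class of `idealMod (∏ D_i ^ c_i)` in the monoid of isomorphism classes.
* `exists_multiTwist_of_trivial`: `M ≅ ⊗ L_i^{c_i}` (natural numbers `c_i`).
-/

set_option autoImplicit false
universe u

open CategoryTheory CategoryTheory.Limits AlgebraicGeometry Opposite TopologicalSpace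

namespace Groth.Agent.Models.H38.TrivGen

open Groth.Agent.Fdesc.LocGen Groth.Agent.Picfga.LineHom Groth.Agent.Dix.IdealModCartier
open Groth.Agent.Divis.EffCartier Groth.Agent.Models.H38.SecDiv Groth.Agent.Fga.PicMon

section Fn

variable {R : Type u} [CommRing R] {X : Scheme.{u}}

/-- The function on `X` given by an element of the base ring. -/
noncomputable def fn (p : X ⟶ Spec (CommRingCat.of R)) (t : R) : Γ(X, ⊤) :=
  p.appTop.hom ((Scheme.ΓSpecIso (CommRingCat.of R)).inv.hom t)

lemma mem_basicOpen_fn (p : X ⟶ Spec (CommRingCat.of R)) (t : R) (x : X) :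
    x ∈ X.basicOpen (fn p t) ↔ t ∉ (p x).asIdeal := by
  have h1 : p ⁻¹ᵁ ((Spec (CommRingCat.of R)).basicOpen
      ((Scheme.ΓSpecIso (CommRingCat.of R)).inv.hom t)) = X.basicOpen (fn p t) :=
    Scheme.preimage_basicOpen p _
  rw [← h1]
  have h2 := basicOpen_eq_of_affine (R := CommRingCat.of R) t
  change p x ∈ ((Spec (CommRingCat.of R)).basicOpen
      ((Scheme.ΓSpecIso (CommRingCat.of R)).inv.hom t)) ↔ _
  rw [h2]
  rfl

lemma genOn_fn [IsDomain R] (p : X ⟶ Spec (CommRingCat.of R)) [Flat p] {t : R} (ht : t ≠ 0) :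
    GenOn (Scheme.IdealSheafData.ofIdealTop (Ideal.span {fn p t})) (fn p t) := by
  intro W hW
  constructor
  · have h1 : (p.appLE ⊤ W.1 le_top).hom.Flat :=
      Scheme.Hom.flat_appLE p (isAffineOpen_top _) W.2 le_top
    have h2 : ((Scheme.ΓSpecIso (CommRingCat.of R)).inv.hom t) ∈
        nonZeroDivisors Γ(Spec (CommRingCat.of R), ⊤) := by
      refine map_mem_nonZeroDivisors_of_flat _ ?_ (mem_nonZeroDivisors_of_ne_zero ht)
      exact RingHom.Flat.of_bijective (ConcreteCategory.bijective_of_isIso _)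
    have h3 := map_mem_nonZeroDivisors_of_flat _ h1 h2
    have h4 : ores hW (fn p t) = (p.appLE ⊤ W.1 le_top).hom
        ((Scheme.ΓSpecIso (CommRingCat.of R)).inv.hom t) := rfl
    rw [h4]
    exact h3
  · rw [Scheme.IdealSheafData.ofIdealTop_ideal, Ideal.map_span, Set.image_singleton]
    rfl

end Fn

section Open

variable {X C : Scheme.{u}}

/-- A trivialization of the pullback of `M` along an open immersion gives a generator over the image. -/
lemma exists_isGen_opensRange (g : C ⟶ X) [IsOpenImmersion g] {M : X.Modules}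
    (h : Nonempty ((Scheme.Modules.pullback g).obj M ≅ Coh.structureModule C)) :
    ∃ s : Γ(M, g.opensRange), IsGen s := by
  obtain ⟨e⟩ := h
  let e' : M.restrict g ≅ Coh.structureModule C :=
    (Scheme.Modules.restrictFunctorIsoPullback g).app M ≪≫ e
  have h1 : IsGen (sec e'.inv ⊤) := (isIso_iff_isGen e'.inv).mp inferInstance
  obtain ⟨m, hm⟩ := (toRestrict (M := M) g (U := ⊤)).surjective (sec e'.inv ⊤)
  rw [← hm, isGen_toRestrict_iff] at h1
  exact ⟨res M g.image_top_eq_opensRange.ge m, h1.res _⟩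

end Open

variable {R : Type u} [CommRing R] [IsDomain R] [IsDiscreteValuationRing R]
variable {K : Type u} [Field K] [Algebra R K] [IsFractionRing R K]
variable {C X : Scheme.{u}} {f : C ⟶ Spec (CommRingCat.of K)} {p : X ⟶ Spec (CommRingCat.of R)} {g : C ⟶ X}

/-- The image of the generic fibre is the locus where a uniformizer is invertible. -/
lemma opensRange_eq_basicOpen [IsOpenImmersion g]
    (hg : IsPullback g f p (Spec.map (CommRingCat.ofHom (algebraMap R K)))) {ϖ : R}
    (hϖ : Irreducible ϖ) : g.opensRange = X.basicOpen (fn p ϖ) := by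
  have hi := Groth.Agent.Models.DVRGeneric.isOpenImmersion_generic R K
  rw [Groth.Agent.Models.DVRGeneric.opensRange_eq_of_isPullback hg]
  ext x
  change p x ∈ (Spec.map (CommRingCat.ofHom (algebraMap R K))).opensRange ↔ x ∈ X.basicOpen (fn p ϖ)
  rw [mem_basicOpen_fn]
  constructor
  · rintro ⟨y, hy⟩ h
    rw [← hy] at h
    change algebraMap R K ϖ ∈ y.asIdeal at h
    refine y.isPrime.ne_top (Ideal.eq_top_of_isUnit_mem _ h ?_)
    refine IsUnit.mk0 _ ?_
    rw [Ne, IsFractionRing.to_map_eq_zero_iff]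
    exact hϖ.ne_zero
  · intro h
    obtain ⟨y, hy⟩ := Groth.Agent.Models.DVRGeneric.range_generic R K (p x) (by
      intro h0
      apply h
      rw [h0]
      exact hϖ.not_isUnit)
    exact ⟨y, hy⟩

/-- An invertible module trivial on the generic fibre is inverse to an effective Cartier ideal supported
in the closed fibre. -/
theorem exists_divisor_of_trivial [CompactSpace X] [QuasiSeparatedSpace X] [Flat p]
    (hg : IsPullback g f p (Spec.map (CommRingCat.ofHom (algebraMap R K)))) {M : X.Modules}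
    (hM : PicF.IsInvertible M)
    (htriv : Nonempty ((Scheme.Modules.pullback g).obj M ≅ Coh.structureModule C)) :
    ∃ D : X.IdealSheafData, BlowUp.IsEffCartierIdeal D ∧
      ClSub.IsInverseOf M (ClSub.idealMod D) ∧
      (D.support : Set X) ⊆ p.base ⁻¹' {IsLocalRing.closedPoint R} := by
  have hgo : IsOpenImmersion g := Groth.Agent.Models.DVRGeneric.isOpenImmersion_of_isPullback hg
  obtain ⟨ϖ, hϖ⟩ := IsDiscreteValuationRing.exists_irreducible R
  obtain ⟨s, hs⟩ := exists_isGen_opensRange g htriv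
  have hr := opensRange_eq_basicOpen hg hϖ
  obtain ⟨s', hs'⟩ : ∃ s : Γ(M, X.basicOpen (fn p ϖ)), IsGen s := ⟨res M hr.ge s, hs.res _⟩
  obtain ⟨D, hD, hinv, hsupp⟩ := exists_divisor_of_isGen_basicOpen hM (genOn_fn p hϖ.ne_zero) hs'
  refine ⟨D, hD, hinv, ?_⟩
  intro x hx
  by_contra hc
  refine hsupp x ?_ hx
  rw [mem_basicOpen_fn]
  intro h
  apply hc
  rcases Groth.Agent.Models.DVRGeneric.eq_closedPoint_or_eq_bot R (p x) with h1 | h1
  · exact h1
  · rw [h1] at h
    exact absurd h hϖ.ne_zero

section Prod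

/-- The class of the ideal module of a product of effective Cartier ideals. -/
theorem mc_idealMod_mul {D E : X.IdealSheafData} (hD : BlowUp.IsEffCartierIdeal D)
    (hE : BlowUp.IsEffCartierIdeal E) :
    mc (ClSub.idealMod (D * E)) = mc (ClSub.idealMod D) * mc (ClSub.idealMod E) := by
  obtain ⟨e⟩ := idealMod_mul hD hE
  rw [← mc_tensor]
  exact (mc_eq e).symm

theorem mc_idealMod_one : mc (ClSub.idealMod (1 : X.IdealSheafData)) = 1 := by
  obtain ⟨e⟩ := idealMod_principal (X := X) (D := 1) (a := 1) (by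
    intro W hW
    rw [map_one]
    refine ⟨one_mem _, ?_⟩
    rw [Ideal.span_singleton_one]
    rfl)
  exact (mc_eq e).symm

theorem mc_idealMod_pow {D : X.IdealSheafData} (hD : BlowUp.IsEffCartierIdeal D) (n : ℕ) :
    mc (ClSub.idealMod (D ^ n)) = mc (ClSub.idealMod D) ^ n := by
  induction n with
  | zero => rw [pow_zero, pow_zero]; exact mc_idealMod_one
  | succ n ih => rw [pow_succ, pow_succ, mc_idealMod_mul (isEff_pow hD n) hD, ih]

theorem isEff_prod {ι : Type*} (s : Finset ι) (D : ι → X.IdealSheafData)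
    (hD : ∀ i ∈ s, BlowUp.IsEffCartierIdeal (D i)) : BlowUp.IsEffCartierIdeal (∏ i ∈ s, D i) := by
  classical
  induction s using Finset.induction_on with
  | empty => rw [Finset.prod_empty]; exact isEff_top
  | insert a s has ih =>
    rw [Finset.prod_insert has]
    exact isEff_mul (hD a (Finset.mem_insert_self a s))
      (ih fun i hi => hD i (Finset.mem_insert_of_mem hi))

theorem mc_idealMod_prod {ι : Type*} (s : Finset ι) (D : ι → X.IdealSheafData)
    (hD : ∀ i ∈ s, BlowUp.IsEffCartierIdeal (D i)) :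
    mc (ClSub.idealMod (∏ i ∈ s, D i)) = ∏ i ∈ s, mc (ClSub.idealMod (D i)) := by
  classical
  induction s using Finset.induction_on with
  | empty => rw [Finset.prod_empty, Finset.prod_empty]; exact mc_idealMod_one
  | insert a s has ih =>
    rw [Finset.prod_insert has, Finset.prod_insert has, mc_idealMod_mul
      (hD a (Finset.mem_insert_self a s))
      (isEff_prod s D fun i hi => hD i (Finset.mem_insert_of_mem hi)),
      ih fun i hi => hD i (Finset.mem_insert_of_mem hi)]

/-- The class of `O_X(-∑ c_i D_i)`. -/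
theorem mc_idealMod_prod_pow {n : ℕ} (D : Fin n → X.IdealSheafData)
    (hD : ∀ i, BlowUp.IsEffCartierIdeal (D i)) (c : Fin n → ℕ) :
    mc (ClSub.idealMod (∏ i, D i ^ c i)) = ∏ i, mc (ClSub.idealMod (D i)) ^ c i := by
  rw [mc_idealMod_prod _ _ fun i _ => isEff_pow (hD i) (c i)]
  exact Finset.prod_congr rfl fun i _ => mc_idealMod_pow (hD i) (c i)

/-- `O_X(∑ c_i D_i) ≅ ⊗ L_i^{c_i}` when `L_i = O_X(D_i)`. -/
theorem isInverseOf_multiTwist {n : ℕ} (D : Fin n → X.IdealSheafData) (L : Fin n → X.Modules)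
    (hL : ∀ i, ClSub.IsInverseOf (L i) (ClSub.idealMod (D i))) (c : Fin n → ℕ) :
    ClSub.IsInverseOf (FGA.multiTwist L c) (ClSub.idealMod (∏ i, D i ^ c i)) := by
  unfold ClSub.IsInverseOf
  rw [← mc_eq_iff, mc_tensor, mc_multiTwist,
    mc_idealMod_prod_pow D (fun i => isEffCartierIdeal_of_isInverseOf (hL i)) c,
    ← Finset.prod_mul_distrib, mc_one]
  refine Finset.prod_eq_one fun i _ => ?_
  rw [← mul_pow]
  have h1 : mc (L i) * mc (ClSub.idealMod (D i)) = 1 := by
    rw [← mc_tensor, ← mc_one, mc_eq_iff]; exact hL i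
  rw [h1, one_pow]

/-- Inverses are unique up to isomorphism. -/
theorem iso_of_isInverseOf {L L' N : X.Modules} (h : ClSub.IsInverseOf L N)
    (h' : ClSub.IsInverseOf L' N) : Nonempty (L ≅ L') := by
  unfold ClSub.IsInverseOf at h h'
  rw [← mc_eq_iff, mc_tensor, mc_one] at h h'
  rw [← mc_eq_iff]
  calc mc L = mc L * (mc L' * mc N) := by rw [h', mul_one]
    _ = mc L' * (mc L * mc N) := by ac_rfl
    _ = mc L' := by rw [h, mul_one]

end Prod

/-- The reduced components of the closed fibre cover it. -/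
theorem specialFibreSet_subset_iUnion (X : Over (Spec (CommRingCat.of R))) {n : ℕ}
    (Γ : Fin n → ArSurf.VertComp R X) (hΓ : Models.IsComponentList R X Γ) :
    Models.specialFibreSet R X ⊆ ⋃ i, Set.range ((Γ i).ι.base : (Γ i).curve.left → X.left) := by
  intro x hx
  have hcl := Models.isClosed_specialFibreSet R X
  -- the irreducible component of `x` in the closed fibre
  let x' : Models.specialFibreSet R X := ⟨x, hx⟩
  have h1 : (Subtype.val '' irreducibleComponent x' : Set X.left) ∈ Models.fibreComponents R X := by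
    refine ⟨⟨?_, ?_⟩, ?_⟩
    · exact isIrreducible_irreducibleComponent.image _ continuous_subtype_val.continuousOn
    · rintro _ ⟨y, -, rfl⟩; exact y.2
    · rintro T ⟨hT, hTs⟩ hle y hy
      have h2 : IsPreirreducible (Subtype.val ⁻¹' T : Set (Models.specialFibreSet R X)) := by
        rintro u v hu hv ⟨a, ha, hau⟩ ⟨b, hb, hbv⟩
        obtain ⟨u', hu', rfl⟩ := isOpen_induced_iff.1 hu
        obtain ⟨v', hv', rfl⟩ := isOpen_induced_iff.1 hv
        obtain ⟨z, hz, hzu, hzv⟩ := hT.isPreirreducible u' v' hu' hv' ⟨a.1, ha, hau⟩ ⟨b.1, hb, hbv⟩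
        exact ⟨⟨z, hTs hz⟩, hz, hzu, hzv⟩
      have h3 : (Subtype.val ⁻¹' T : Set (Models.specialFibreSet R X)) = irreducibleComponent x' :=
        eq_irreducibleComponent h2 fun z hz => hle ⟨z, hz, rfl⟩
      exact ⟨⟨y, hTs hy⟩, h3 ▸ hy, rfl⟩
  rw [← hΓ.2] at h1
  obtain ⟨i, hi⟩ := h1
  refine Set.mem_iUnion.2 ⟨i, ?_⟩
  change x ∈ (fun i => Set.range ((Γ i).ι.base : (Γ i).curve.left → X.left)) i
  rw [hi]
  exact ⟨x', mem_irreducibleComponent, rfl⟩

/-- The ideal of a component of the closed fibre defines an integral subscheme. -/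
theorem isIntegral_ker_subscheme {Y Z : Scheme.{u}} (i : Y ⟶ Z) [IsClosedImmersion i] [IsIntegral Y] :
    IsIntegral i.ker.subscheme := by
  have : IsIntegral i.image := IsIntegral.of_isIso i.toImage
  exact this

/-- An effective Cartier ideal supported in the closed fibre is a product of powers of the ideals of the
components. -/
theorem exists_prod_ker_pow (X : Over (Spec (CommRingCat.of R))) [IsNoetherian X.left] {n : ℕ}
    (Γ : Fin n → ArSurf.VertComp R X) (hΓ : Models.IsComponentList R X Γ)
    (hΓc : ∀ i, BlowUp.IsEffCartierIdeal (Γ i).ι.ker) {D : X.left.IdealSheafData}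
    (hD : BlowUp.IsEffCartierIdeal D) (hsupp : (D.support : Set X.left) ⊆ Models.specialFibreSet R X) :
    ∃ c : Fin n → ℕ, D = ∏ i, (Γ i).ι.ker ^ c i := by
  refine Groth.Agent.S1659.result X.left D hD n (fun i => (Γ i).ι.ker) hΓc
    (fun i => isIntegral_ker_subscheme (Γ i).ι) ?_
  intro x hx
  obtain ⟨i, y, hy⟩ := Set.mem_iUnion.1 (specialFibreSet_subset_iUnion X Γ hΓ (hsupp hx))
  refine Set.mem_iUnion.2 ⟨i, ?_⟩
  have := Scheme.Hom.support_ker (Γ i).ι
  rw [(Γ i).ι.isClosedEmbedding.isClosed_range.closure_eq] at this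
  rw [this]
  exact ⟨y, hy⟩

/-- An invertible module on a model which is trivial on the generic fibre is a tensor monomial in the
`O_X(Γ_i)`, with natural number exponents. -/
theorem exists_multiTwist_of_trivial [IsNoetherian X] [Flat p]
    (hg : IsPullback g f p (Spec.map (CommRingCat.ofHom (algebraMap R K)))) {n : ℕ}
    (Γ : Fin n → ArSurf.VertComp R (Over.mk p)) (hΓ : Models.IsComponentList R (Over.mk p) Γ)
    (L : Fin n → X.Modules) (hL : ∀ i, ClSub.IsInverseOf (L i) (ClSub.idealMod (Γ i).ι.ker))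
    {M : X.Modules} (hM : PicF.IsInvertible M)
    (htriv : Nonempty ((Scheme.Modules.pullback g).obj M ≅ Coh.structureModule C)) :
    ∃ c : Fin n → ℕ, Nonempty (M ≅ FGA.multiTwist L c) := by
  obtain ⟨D, hD, hinv, hsupp⟩ := exists_divisor_of_trivial hg hM htriv
  have hn : IsNoetherian (Over.mk p).left := (inferInstance : IsNoetherian X)
  obtain ⟨c, hc⟩ := exists_prod_ker_pow (Over.mk p) Γ hΓ
    (fun i => isEffCartierIdeal_of_isInverseOf (hL i)) hD hsupp
  refine ⟨c, ?_⟩
  refine iso_of_isInverseOf hinv ?_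
  rw [hc]
  exact isInverseOf_multiTwist _ L hL c

end Groth.Agent.Models.H38.TrivGen
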